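import Cfsg.Agent.Lib.InvChar.S64Tab

/-!
Computed facts about the Sylow `2`-subgroup of `M12`.
-/

set_option autoImplicit false

namespace Cfsg.Lib.IC.S64

open Cfsg.Lib.PC

theorem card : Nat.card S64 = 64 := Tab.card_El
theorem card_Q : Nat.card Q = 32 := by rw [Tab.card_subgroup]; decide +kernel
theorem card_U : Nat.card U = 4 := by rw [Tab.card_subgroup]; decide +kernel
theorem card_E : Nat.card E = 8 := by rw [Tab.card_subgroup]; decide +kernel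
theorem card_Ma : Nat.card Ma = 32 := by rw [Tab.card_subgroup]; decide +kernel
theorem card_Mb : Nat.card Mb = 32 := by rw [Tab.card_subgroup]; decide +kernel
theorem comm_z : ∀ x : S64, x * z = z * x := by decide +kernel
theorem mem_U : ∀ x : S64, x ∈ U ↔ x = 1 ∨ x = z ∨ x = u ∨ x = u * z := by decide +kernel
theorem basic : z * z = 1 ∧ z ≠ 1 ∧ u * u = 1 ∧ u ≠ 1 ∧ u ≠ z ∧ a * a = 1 ∧ a ≠ 1 ∧ b * b = 1 ∧
    b ≠ 1 ∧ s * s = 1 ∧ s ∉ Q ∧ s ∈ B ∧ i1 * i2 = u ∧ cs a = 5 ∧ cs b = 6 ∧ cs (b * z) = 6 ∧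
    a ∈ Q ∧ b ∈ Q ∧ u ∈ Q ∧ z ∈ Q ∧ b ∉ U ∧ u * z ≠ 1 := by decide +kernel
theorem sq_mem_U : ∀ y : S64, y * y * (y * y) = 1 → y * y ∈ U := by decide +kernel
theorem inv_type : ∀ y : S64, y * y = 1 → y ∈ U ∨ (∃ r, r * y = y * r ∧ r * r = z) ∨
    (u * y = y * u ∧ ∀ c, c * y = y * c → c ∈ U ∨ ∃ g, g * y * g⁻¹ = c) := by decide +kernel
theorem conj_u : ∃ g : S64, g * u * g⁻¹ = u * z := by decide +kernel
theorem root_u : i1 * u = u * i1 ∧ i1 * i1 = z := by decide +kernel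
theorem cs_five : ∀ x : S64, cs x = 5 → ∃ g, g * a * g⁻¹ = x := by decide +kernel
theorem cs_six : ∀ x : S64, cs x = 6 → ∃ g, g * b * g⁻¹ = x := by decide +kernel
theorem cs_conj : ∀ x g : S64, cs (g * x * g⁻¹) = cs x := by decide +kernel
theorem cs_Cg : ∀ x y : S64, Cg x y → cs y = 5 → cs x = 5 := by decide +kernel
theorem inv_Ma : ∀ x : S64, x ∈ Ma → x * x = 1 → x ∈ U ∨ cs x = 5 := by decide +kernel
theorem inv_Mb : ∀ x : S64, x ∈ Mb → x * x = 1 → x ∈ U ∨ cs x = 6 := by decide +kernel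
theorem cnt_comm : ∀ y : S64, y * y = 1 → y ∉ U → tab64.cnt (fun c => c * y = y * c) ≤ 16 := by
  decide +kernel
theorem cnt_b : tab64.cnt (fun c => c * b = b * c) = 16 := by decide +kernel
theorem sq_comm_b : ∀ r : S64, r * b = b * r → r * r = 1 ∨ r * r = z := by decide +kernel
theorem root_a : ∃ r : S64, r * a = a * r ∧ r * r = z := by decide +kernel

/-- the square is not central -/
def Bad (y : S64) : Prop := y * y ≠ 1 ∧ y * y ≠ z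

instance : DecidablePred Bad := fun _ => inferInstanceAs (Decidable (_ ∧ _))

theorem bad_c0 : Bad c0 := by decide +kernel
theorem bad_of_not_mem : ∀ x : S64, x ∉ Q → Bad x ∨ ∃ y, Bad y ∧ Bad (x * (c0 * y)) := by
  decide +kernel
theorem sq_Q : ∀ q : S64, q ∈ Q → q * q = 1 ∨ q * q = z := by decide +kernel
theorem conj_Q : ∀ q : S64, q ∈ Q → ∀ x, x ∈ Q → Cg (q * x * q⁻¹) x := by decide +kernel
theorem Q_norm : ∀ q : S64, q ∈ Q → ∀ g, g * q * g⁻¹ ∈ Q := by decide +kernel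
theorem cent_Q : ∀ p : S64, (∀ q, q ∈ Q → q * p = p * q) → p = 1 ∨ p = z := by decide +kernel
theorem mem_Q_of_sq : ∀ y : S64, y * y = z → y ∈ Q := by decide +kernel
theorem mem_Q_or : ∀ p : S64, p ∈ Q ∨ p * s ∈ Q := by decide +kernel
theorem ev_gens : ∀ q : S64, q ∈ Q → ev i1 j1 i2 j2 q = q := by decide +kernel
theorem gens : i1 * i1 = z ∧ j1 * j1 = z ∧ i2 * i2 = z ∧ j2 * j2 = z ∧ i1 * j1 ≠ j1 * i1 ∧
    i1 * i2 = i2 * i1 ∧ j1 * i2 = i2 * j1 ∧ i1 * j2 = j2 * i1 ∧ j1 * j2 = j2 * j1 ∧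
    i2 * j2 ≠ j2 * i2 := by decide +kernel
theorem r_gens : (∀ q : S64, ev (r1 i1) (r1 j1) (r1 i2) (r1 j2) q = r1 q) ∧
    (∀ q : S64, ev (r1' i1) (r1' j1) (r1' i2) (r1' j2) q = r1' q) ∧
    (∀ q : S64, ev (r2 i1) (r2 j1) (r2 i2) (r2 j2) q = r2 q) ∧
    ∀ q : S64, ev (r2' i1) (r2' j1) (r2' i2) (r2' j2) q = r2' q := by decide +kernel
theorem r_mem : ∀ q : S64, r1 q ∈ Q ∧ r1' q ∈ Q ∧ r2 q ∈ Q ∧ r2' q ∈ Q := by decide +kernel
theorem r_fpf : ∀ q : S64, q ∈ Q → Cg (r1 q) q ∨ Cg (r1' q) q ∨ Cg (r2 q) q ∨ Cg (r2' q) q →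
    q = 1 ∨ q = z := by decide +kernel
theorem r_inv : ∀ q : S64, q ∈ Q → r1' (r1 q) = q ∧ r1 (r1' q) = q ∧ r2' (r2 q) = q ∧
    r1 (r1 (r1 q)) = q ∧ s * r1 (s * r1 q * s⁻¹) * s⁻¹ = q := by decide +kernel
theorem r_bad : cs (r2 (r1 u)) = 5 ∧ cs (r2' (r1 u)) = 6 := by decide +kernel
theorem r_onto : ∀ q : S64, q ∈ Q → ∃ y, y ∈ Q ∧ Cg (r1 y * y⁻¹) q := by decide +kernel
theorem σ_facts : σ z = z ∧ σ u = u ∧ σ a = a ∧ cs (σ b) = 6 := by decide +kernel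
theorem σ_σ : ∀ x : S64, σ (σ x) = x := by decide +kernel
theorem σ_mem : ∀ x : S64, x ∈ Q → σ x ∈ Q := by decide +kernel
theorem σ_r : ∀ q : S64, q ∈ Q → σ (r1 q) = r2 (σ q) := by decide +kernel
theorem B_norm : ∀ p : S64, p ∈ B → ∀ g, g * p * g⁻¹ ∈ B := by decide +kernel
theorem B_s : ∀ p : S64, p ∈ B → Cg (p * s * p⁻¹) s := by decide +kernel
theorem B_gen : ∀ p : S64, p ∈ B → ∃ x, x ∈ B ∧ x * x = z ∧ (p = x ∨ p = x * s ∨
    ∃ y, y ∈ B ∧ y * y = z ∧ (p = x * y ∨ p = x * y * s)) := by decide +kernel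
theorem z_mem_B : z ∈ B := by decide +kernel

/-- the component in the Sylow subgroup -/
def sp (x : H192) : S64 := tab64.el x.val

theorem ι_r1 : ∀ q : S64, q ∈ Q → ι (r1 q) = ρ * ι q * ρ⁻¹ := by decide +kernel
theorem ρ_facts : ρ ^ 3 = 1 ∧ ρ * ι s = ι s * ρ ^ 2 ∧ ι z = H192.z ∧ H192.cl (ι u) = 2 ∧
    H192.cl (ι a) = 3 := by decide +kernel
theorem dec : ∀ x : H192, x = ι (sp x) * ρ ^ (x.val / 64) := by decide +kernel
theorem dec_uniq : ∀ p : S64, (sp (ι p) = p ∧ (ι p).val / 64 = 0) ∧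
    (sp (ι p * ρ) = p ∧ (ι p * ρ).val / 64 = 1) ∧
    (sp (ι p * ρ ^ 2) = p ∧ (ι p * ρ ^ 2).val / 64 = 2) := by decide +kernel
theorem ι_sp : ∀ x : H192, x ∈ H192.S0 → ι (sp x) = x := by decide +kernel
theorem ι_mem : ∀ p : S64, ι p ∈ H192.S0 := by decide +kernel
theorem E_iff : ∀ p : S64, p ∈ E ↔ p = 1 ∨ H192.cl (ι p) = 1 ∨ H192.cl (ι p) = 2 := by
  decide +kernel
theorem U_le_E : ∀ p : S64, p ∈ U → p ∈ E := by decide +kernel
theorem E_comm : ∀ p : S64, p ∈ E → p * p = 1 ∧ ∀ q, q ∈ E → p * q = q * p := by decide +kernel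
theorem z_mem_closure : ∀ x : H192, x ≠ 1 → ∃ g, x * (g * x⁻¹ * g⁻¹) = H192.z ∨ x = H192.z ∨
    x * (g * x⁻¹ * g⁻¹) * (x * (g * x⁻¹ * g⁻¹)) = H192.z := by decide +kernel
theorem cl_four_sq : ∀ p : H192, H192.cl p = 4 → ∀ q, H192.cl q = 4 →
    H192.cl (p * q * (p * q)) ≠ 2 := by decide +kernel
theorem four_pair : ∃ p q : H192, H192.cl p = 4 ∧ H192.cl q = 4 ∧ p * q * (p * q) = H192.z ∧
    p * ι u = ι u * p ∧ q * ι u = ι u * q := by decide +kernel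

end Cfsg.Lib.IC.S64
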